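import Cfsg.Agent.H482.LF.St
import Cfsg.Agent.H179.L34.Orb3
import Cfsg.Agent.H902.L34.Sixteen
import Cfsg.Agent.H118.L34.PL
import Cfsg.Agent.H360.L34.NineDims

/-!
# S5917, part I: `simp_B` (M1), `simp_cases` (M3), `PL` without hypotheses (helper482)
-/

set_option autoImplicit false

namespace Cfsg.Agent.H482.LF

open Matrix Cfsg.Agent.H691.L34

variable {F : Type} [Field F] [Fintype F] {V : Type} [AddCommGroup V] [Module (ZMod 2) V] [Module.Finite (ZMod 2) V]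
  {ρ : Representation (ZMod 2) (G3 F) V}

/-- the Steinberg branch -/
theorem st_branch (hF : Fintype.card F = 4) {W : Submodule (ZMod 2) V} (hW : Simp ρ W) {w : V} (hw : w ∈ W) (hw0 : w ≠ 0)
    (hB : ∀ g : G3 F, g.1 1 0 = 0 → g.1 2 0 = 0 → g.1 2 1 = 0 → ρ g w = w)
    (h1 : ∀ (n : G3 F) (x : F → G3 F), n.1 = !![0,1,0;1,0,0;0,0,1] → (∀ a, (x a).1 = !![1,a,0;0,1,0;0,0,1]) →
      w + ∑ a : F, ρ (x a * n) w = 0)
    (h2 : ∀ (n : G3 F) (x : F → G3 F), n.1 = !![1,0,0;0,0,1;0,1,0] → (∀ a, (x a).1 = !![1,0,0;0,1,a;0,0,1]) →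
      w + ∑ a : F, ρ (x a * n) w = 0) : Is64 ρ W :=
  st_branch_of hF (Cfsg.Agent.H179.L34.orb3 hF (Cfsg.Agent.H353.L34.card_cos hF)) hW hw hw0 hB h1 h2

/-- (I-simp-B) a simple submodule with a vector fixed by the Borel subgroup -/
theorem simp_B (hF : Fintype.card F = 4) (_hc : CT ρ) {W : Submodule (ZMod 2) V} (hW : Simp ρ W) {w : V} (hw : w ∈ W)
    (hw0 : w ≠ 0) (hB : ∀ g : G3 F, g.1 1 0 = 0 → g.1 2 0 = 0 → g.1 2 1 = 0 → ρ g w = w) :
    (∀ v ∈ W, ∀ g, ρ g v = v) ∨ IsNine ρ false W ∨ IsNine ρ true W ∨ Is64 ρ W := by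
  refine Cfsg.Agent.H170.L34.simp_B_of ?_ hF hW hw hw0 hB
  intro W' hW' w' hw' hw0' hB' h1 h2
  exact st_branch hF hW' hw' hw0' hB' h1 h2

theorem simpB (hF : Fintype.card F = 4) : Cfsg.Agent.H118.L34.SimpB F := by
  intro V _ _ _ ρ hc W hW w hw hw0 hB
  exact simp_B hF hc hW hw hw0 hB

theorem simpCases (hF : Fintype.card F = 4) : Cfsg.Agent.H118.L34.SimpCases F :=
  Cfsg.Agent.H118.L34.simpCases_of (simpB hF) (Cfsg.Agent.H902.L34.simp16 hF)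

/-- (I-simp) -/
theorem simp_cases (hF : Fintype.card F = 4) (hc : CT ρ) {W : Submodule (ZMod 2) V} (hW : Simp ρ W) :
    (∀ v ∈ W, ∀ g, ρ g v = v) ∨ IsNine ρ false W ∨ IsNine ρ true W ∨ Is16 ρ W ∨ Is64 ρ W :=
  simpCases hF hc hW

theorem nineDims (hF : Fintype.card F = 4) : Cfsg.Agent.H118.L34.NineDims F := by
  intro V _ _ _ ρ b W h
  exact Cfsg.Agent.H360.L34.nine_dims hF h

/-- (I-PL) the dimensions of every module -/
theorem PL (hF : Fintype.card F = 4) (hc : CT ρ) {A B : Submodule (ZMod 2) V} (hA : Inv ρ A) (hB : Inv ρ B) (h : A ≤ B) :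
    ∃ a b c d : ℕ, Module.finrank (ZMod 2) B = Module.finrank (ZMod 2) A + (a + 16 * b + 9 * c + 64 * d) ∧
      (∀ g : G3 F, orderOf g = 3 → g ∉ Subgroup.center (G3 F) → Module.finrank (ZMod 2) (fx ρ g B) =
        Module.finrank (ZMod 2) (fx ρ g A) + (a + 4 * b + 3 * c + 22 * d)) ∧
      (∀ g : G3 F, orderOf g = 5 → Module.finrank (ZMod 2) (fx ρ g B) =
        Module.finrank (ZMod 2) (fx ρ g A) + (a + 4 * b + c + 12 * d)) ∧
      ∀ g : G3 F, orderOf g = 7 → Module.finrank (ZMod 2) (fx ρ g B) =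
        Module.finrank (ZMod 2) (fx ρ g A) + (a + 4 * b + 10 * d) :=
  Cfsg.Agent.H118.L34.PL_of (simpCases hF) (nineDims hF) hc hA hB h

end Cfsg.Agent.H482.LF
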