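import Cfsg.Agent.H482.LF.StDims
import Cfsg.Agent.H906.L34.StDim
import Cfsg.Agent.H219.L34.O57
import Cfsg.Agent.H353.L34.Cos
import Cfsg.Agent.H170.L34.Flag

/-!
# S5917, Steinberg branch (helper482)
-/

set_option autoImplicit false

namespace Cfsg.Agent.H482.LF

open Matrix Cfsg.Agent.H691.L34

variable {F : Type} [Field F] [Fintype F] {V : Type} [AddCommGroup V] [Module (ZMod 2) V] [Module.Finite (ZMod 2) V]
  {ρ : Representation (ZMod 2) (G3 F) V}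

/-- the Steinberg branch, from the orbits of elements of order 3 -/
theorem st_branch_of (hF : Fintype.card F = 4)
    (h3 : ∀ g : G3 F, orderOf g = 3 → g ∉ Subgroup.center (G3 F) →
      Module.finrank (ZMod 2) (fixF (BB F) g) = 39 ∧ Module.finrank (ZMod 2) (fixF (PP F) g) = 9 ∧
        Module.finrank (ZMod 2) (fixF (LL F) g) = 9)
    {W : Submodule (ZMod 2) V} (hW : Simp ρ W) {w : V} (hw : w ∈ W) (hw0 : w ≠ 0)
    (hB : ∀ g : G3 F, g.1 1 0 = 0 → g.1 2 0 = 0 → g.1 2 1 = 0 → ρ g w = w)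
    (h1 : ∀ (n : G3 F) (x : F → G3 F), n.1 = !![0,1,0;1,0,0;0,0,1] → (∀ a, (x a).1 = !![1,a,0;0,1,0;0,0,1]) →
      w + ∑ a : F, ρ (x a * n) w = 0)
    (h2 : ∀ (n : G3 F) (x : F → G3 F), n.1 = !![1,0,0;0,0,1;0,1,0] → (∀ a, (x a).1 = !![1,0,0;0,1,a;0,0,1]) →
      w + ∑ a : F, ρ (x a * n) w = 0) : Is64 ρ W := by
  have hcos := Cfsg.Agent.H353.L34.card_cos hF
  have hgen : PP F ⊔ LL F = ⊤ := Cfsg.Agent.H353.L34.gen_PL
  obtain ⟨h64, hup⟩ := Cfsg.Agent.H906.L34.st_dim hF hW hw hw0 hB h1 h2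
  have hB' : ∀ g ∈ BB F, ρ g w = w := fun g hg => hB g hg.1 hg.2.1 hg.2.2
  refine ⟨⟨h64, fun g hg hc => ?_, fun g hg => ?_, fun g hg => ?_⟩, hup⟩
  · have e := fx_dim hF hW hw hw0 hB' h1 h2 hgen hcos.1 hcos.2.1 hcos.2.2 h64 (g := g) (n := 3) (by decide)
      (by have e := pow_orderOf_eq_one g; rw [hg] at e; exact e)
    obtain ⟨e1, e2, e3⟩ := h3 g hg hc
    omega
  · have e := fx_dim hF hW hw hw0 hB' h1 h2 hgen hcos.1 hcos.2.1 hcos.2.2 h64 (g := g) (n := 5) (by decide)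
      (by have e := pow_orderOf_eq_one g; rw [hg] at e; exact e)
    obtain ⟨e1, e2, e3⟩ := (Cfsg.Agent.H219.L34.orb57 hF hcos g).1 hg
    omega
  · have e := fx_dim hF hW hw hw0 hB' h1 h2 hgen hcos.1 hcos.2.1 hcos.2.2 h64 (g := g) (n := 7) (by decide)
      (by have e := pow_orderOf_eq_one g; rw [hg] at e; exact e)
    obtain ⟨e1, e2, e3⟩ := (Cfsg.Agent.H219.L34.orb57 hF hcos g).2 hg
    omega

end Cfsg.Agent.H482.LF
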