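import Cfsg.Agent.H691.L34.Def

/-!
# S5917, Steinberg branch: Borel subgroup, point and line stabilizers in `SL₃(4)` (helper482)
-/

set_option autoImplicit false

namespace Cfsg.Agent.H482.LF

open Matrix Cfsg.Agent.H691.L34

theorem mul3 {F : Type} [Field F] (a b : G3 F) (i j : Fin 3) :
    (a * b).1 i j = a.1 i 0 * b.1 0 j + a.1 i 1 * b.1 1 j + a.1 i 2 * b.1 2 j := by
  show (a.1 * b.1) i j = _
  rw [Matrix.mul_apply, Fin.sum_univ_three]

/-- the upper triangular subgroup -/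
def BB (F : Type) [Field F] : Subgroup (G3 F) where
  carrier := {g | g.1 1 0 = 0 ∧ g.1 2 0 = 0 ∧ g.1 2 1 = 0}
  one_mem' := by refine ⟨?_, ?_, ?_⟩ <;> simp [Matrix.one_apply]
  mul_mem' := by
    rintro a b ⟨h1, h2, h3⟩ ⟨k1, k2, k3⟩
    refine ⟨?_, ?_, ?_⟩ <;> rw [mul3] <;> simp [*]
  inv_mem' := by
    rintro a ⟨h1, h2, h3⟩
    have hi : ∀ i j, (a⁻¹ : G3 F).1 i j = (a.1).adjugate i j := fun i j => rfl
    refine ⟨?_, ?_, ?_⟩ <;> simp [hi, Matrix.adjugate_fin_three, *]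

/-- the stabilizer of the point `⟨e₀⟩` -/
def PP (F : Type) [Field F] : Subgroup (G3 F) where
  carrier := {g | g.1 1 0 = 0 ∧ g.1 2 0 = 0}
  one_mem' := by refine ⟨?_, ?_⟩ <;> simp [Matrix.one_apply]
  mul_mem' := by
    rintro a b ⟨h1, h2⟩ ⟨k1, k2⟩
    refine ⟨?_, ?_⟩ <;> rw [mul3] <;> simp [*]
  inv_mem' := by
    rintro a ⟨h1, h2⟩
    have hi : ∀ i j, (a⁻¹ : G3 F).1 i j = (a.1).adjugate i j := fun i j => rfl
    refine ⟨?_, ?_⟩ <;> simp [hi, Matrix.adjugate_fin_three, *]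

/-- the stabilizer of the line `⟨e₀, e₁⟩` -/
def LL (F : Type) [Field F] : Subgroup (G3 F) where
  carrier := {g | g.1 2 0 = 0 ∧ g.1 2 1 = 0}
  one_mem' := by refine ⟨?_, ?_⟩ <;> simp [Matrix.one_apply]
  mul_mem' := by
    rintro a b ⟨h1, h2⟩ ⟨k1, k2⟩
    refine ⟨?_, ?_⟩ <;> rw [mul3] <;> simp [*]
  inv_mem' := by
    rintro a ⟨h1, h2⟩
    have hi : ∀ i j, (a⁻¹ : G3 F).1 i j = (a.1).adjugate i j := fun i j => rfl
    refine ⟨?_, ?_⟩ <;> simp [hi, Matrix.adjugate_fin_three, *]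

/-- the functions on `G/H` fixed by `g` -/
def fixF {F : Type} [Field F] (H : Subgroup (G3 F)) (g : G3 F) : Submodule (ZMod 2) (G3 F ⧸ H → ZMod 2) where
  carrier := {c | ∀ x, c (g • x) = c x}
  add_mem' := fun {a b} ha hb x => by
    show a _ + b _ = a x + b x
    rw [ha x, hb x]
  zero_mem' := fun x => rfl
  smul_mem' := fun r c hc x => by
    show r * c _ = r * c x
    rw [hc x]

end Cfsg.Agent.H482.LF
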