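import Cfsg.Agent.H482.LF.StDef

/-!
# S5917, Steinberg branch: the exact sequence of the flag graph (helper482)
-/

set_option autoImplicit false

namespace Cfsg.Agent.H482.LF

open Matrix Cfsg.Agent.H691.L34

section lin
variable {M N : Type*} [AddCommGroup M] [Module (ZMod 2) M] [Module.Finite (ZMod 2) M] [AddCommGroup N]
  [Module (ZMod 2) N]

theorem two_smul_zero (y : N) : y + y = 0 := by
  have h : (2 : ZMod 2) • y = y + y := two_smul _ y
  rw [← h, show (2 : ZMod 2) = 0 from rfl, zero_smul]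

theorem odd_smul {n : ℕ} (hn : Odd n) (y : N) : n • y = y := by
  obtain ⟨k, rfl⟩ := hn
  rw [add_smul, one_smul, mul_smul, smul_comm, two_smul, two_smul_zero, smul_zero, zero_add]

theorem fixAdd (a : Module.End (ZMod 2) M) (b : Module.End (ZMod 2) N) (φ : M →ₗ[ZMod 2] N)
    (h : ∀ x, φ (a x) = b (φ x)) {n : ℕ} (hn : Odd n) (ha : a ^ n = 1) (SA : Submodule (ZMod 2) M)
    (hSA : ∀ x, x ∈ SA ↔ a x = x) (SB : Submodule (ZMod 2) N) (hSB : ∀ y, y ∈ SB ↔ b y = y) :
    Module.finrank (ZMod 2) SA = Module.finrank (ZMod 2) ↥(SA ⊓ LinearMap.ker φ) +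
      Module.finrank (ZMod 2) ↥(SB ⊓ LinearMap.range φ) := by
  have e1 := LinearMap.finrank_range_add_finrank_ker (φ.domRestrict SA)
  have e2 : LinearMap.range (φ.domRestrict SA) = SB ⊓ LinearMap.range φ := by
    ext y
    constructor
    · rintro ⟨⟨x, hx⟩, rfl⟩
      refine ⟨(hSB _).2 ?_, ⟨x, rfl⟩⟩
      show b (φ x) = φ x
      rw [← h, (hSA x).1 hx]
    · rintro ⟨hy, ⟨x, rfl⟩⟩
      have hy' := (hSB _).1 hy
      refine ⟨⟨∑ i ∈ Finset.range n, (a ^ i) x, (hSA _).2 ?_⟩, ?_⟩
      · rw [map_sum]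
        have h1 : ∀ i, a ((a ^ i) x) = (a ^ (i + 1)) x := fun i => by rw [pow_succ']; rfl
        simp_rw [h1]
        have t := Finset.sum_range_succ (fun i => (a ^ i) x) n
        have t' := Finset.sum_range_succ' (fun i => (a ^ i) x) n
        have t0 : (a ^ 0) x = (a ^ n) x := by rw [ha, pow_zero]
        rw [t] at t'
        rw [← t0] at t'
        exact (add_right_cancel t').symm
      · show φ (∑ i ∈ Finset.range n, (a ^ i) x) = φ x
        rw [map_sum]
        have h2 : ∀ i, φ ((a ^ i) x) = φ x := by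
          intro i
          induction i with
          | zero => rfl
          | succ i ih =>
            rw [pow_succ']
            show φ (a ((a ^ i) x)) = _
            rw [h, ih, hy']
        simp_rw [h2]
        rw [Finset.sum_const, Finset.card_range, odd_smul hn]
  have e3 : Submodule.map SA.subtype (LinearMap.ker (φ.domRestrict SA)) = SA ⊓ LinearMap.ker φ := by
    ext x
    constructor
    · rintro ⟨⟨y, hy⟩, hz, rfl⟩
      exact ⟨hy, hz⟩
    · rintro ⟨hx, hz⟩
      exact ⟨⟨x, hx⟩, hz, rfl⟩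
  have e4 := Submodule.finrank_map_subtype_eq SA (LinearMap.ker (φ.domRestrict SA))
  rw [e3] at e4
  rw [e2] at e1
  omega

end lin

section fun_mod
variable {F : Type} [Field F]

/-- the permutation module on `G/H` -/
def act (H : Subgroup (G3 F)) : Representation (ZMod 2) (G3 F) (G3 F ⧸ H → ZMod 2) where
  toFun g := LinearMap.funLeft (ZMod 2) (ZMod 2) (fun x : G3 F ⧸ H => g⁻¹ • x)
  map_one' := by
    apply LinearMap.ext
    intro c
    funext x
    show c ((1 : G3 F)⁻¹ • x) = c x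
    rw [inv_one, one_smul]
  map_mul' g h := by
    apply LinearMap.ext
    intro c
    funext x
    show c ((g * h)⁻¹ • x) = c (h⁻¹ • g⁻¹ • x)
    rw [_root_.mul_inv_rev, mul_smul]

theorem act_apply (H : Subgroup (G3 F)) (g : G3 F) (c : G3 F ⧸ H → ZMod 2) (x : G3 F ⧸ H) :
    act H g c x = c (g⁻¹ • x) := rfl

theorem mem_fixF (H : Subgroup (G3 F)) (g : G3 F) (c : G3 F ⧸ H → ZMod 2) : c ∈ fixF H g ↔ act H g c = c := by
  constructor
  · intro h
    funext x
    rw [act_apply, ← h (g⁻¹ • x), smul_inv_smul]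
  · intro h x
    have := congrFun h (g • x)
    rw [act_apply, inv_smul_smul] at this
    exact this.symm

theorem act_pow (H : Subgroup (G3 F)) {g : G3 F} {n : ℕ} (h : g ^ n = 1) : (act H g) ^ n = 1 := by
  rw [← map_pow, h, map_one]

/-- the map `δ` -/
def dl {B P L : Subgroup (G3 F)} (hP : B ≤ P) (hL : B ≤ L) :
    (G3 F ⧸ P → ZMod 2) × (G3 F ⧸ L → ZMod 2) →ₗ[ZMod 2] (G3 F ⧸ B → ZMod 2) :=
  (LinearMap.funLeft (ZMod 2) (ZMod 2) (Subgroup.quotientMapOfLE hP)).coprod
    (LinearMap.funLeft (ZMod 2) (ZMod 2) (Subgroup.quotientMapOfLE hL))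

theorem dl_apply {B P L : Subgroup (G3 F)} (hP : B ≤ P) (hL : B ≤ L) (a : G3 F ⧸ P → ZMod 2) (b : G3 F ⧸ L → ZMod 2)
    (g : G3 F) : dl hP hL (a, b) (g : G3 F ⧸ B) = a (g : G3 F ⧸ P) + b (g : G3 F ⧸ L) := rfl

theorem dl_act {B P L : Subgroup (G3 F)} (hP : B ≤ P) (hL : B ≤ L) (h : G3 F) (x : (G3 F ⧸ P → ZMod 2) × (G3 F ⧸ L → ZMod 2)) :
    dl hP hL ((act P h).prodMap (act L h) x) = act B h (dl hP hL x) := by
  obtain ⟨a, b⟩ := x
  funext y
  induction y using QuotientGroup.induction_on with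
  | H g =>
    show dl hP hL (act P h a, act L h b) _ = dl hP hL (a, b) (h⁻¹ • (g : G3 F ⧸ B))
    rw [dl_apply]
    show a (h⁻¹ • (g : G3 F ⧸ P)) + b (h⁻¹ • (g : G3 F ⧸ L)) = dl hP hL (a, b) ((h⁻¹ * g : G3 F) : G3 F ⧸ B)
    rw [dl_apply]
    rfl

/-- the kernel of `δ` : the constant functions -/
theorem ker_dl {B P L : Subgroup (G3 F)} (hP : B ≤ P) (hL : B ≤ L) (hg : P ⊔ L = ⊤) :
    LinearMap.ker (dl hP hL) = Submodule.span (ZMod 2) {((fun _ => 1, fun _ => 1) : (G3 F ⧸ P → ZMod 2) × (G3 F ⧸ L → ZMod 2))} := by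
  have z2 : ∀ x y : ZMod 2, x + y = 0 → x = y := by decide
  apply le_antisymm
  · rintro ⟨a, b⟩ h
    have h1 : ∀ g : G3 F, a (g : G3 F ⧸ P) = b (g : G3 F ⧸ L) := fun g => by
      have := congrFun (LinearMap.mem_ker.1 h) (g : G3 F ⧸ B)
      rw [dl_apply] at this
      exact z2 _ _ this
    -- the right stabilizer of the common function
    let S : Subgroup (G3 F) :=
      { carrier := {s | ∀ g : G3 F, a ((g * s : G3 F) : G3 F ⧸ P) = a (g : G3 F ⧸ P)}
        one_mem' := fun g => by rw [mul_one]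
        mul_mem' := fun {s t} hs ht g => by rw [← mul_assoc, ht, hs]
        inv_mem' := fun {s} hs g => by
          have := hs (g * s⁻¹)
          rw [inv_mul_cancel_right] at this
          exact this.symm }
    have hPS : P ≤ S := fun s hs g => by
      congr 1
      rw [QuotientGroup.eq]
      have : (g * s)⁻¹ * g = s⁻¹ := by group
      rw [this]
      exact P.inv_mem hs
    have hLS : L ≤ S := fun s hs g => by
      rw [h1, h1]
      congr 1
      rw [QuotientGroup.eq]
      have : (g * s)⁻¹ * g = s⁻¹ := by group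
      rw [this]
      exact L.inv_mem hs
    have hS : ∀ s, s ∈ S := fun s => (hg ▸ sup_le hPS hLS : ⊤ ≤ S) trivial
    have h2 : ∀ g : G3 F, a (g : G3 F ⧸ P) = a ((1 : G3 F) : G3 F ⧸ P) := fun g => by
      have := hS g 1
      rwa [one_mul] at this
    rw [Submodule.mem_span_singleton]
    refine ⟨a ((1 : G3 F) : G3 F ⧸ P), ?_⟩
    apply Prod.ext
    · funext x
      induction x using QuotientGroup.induction_on with
      | H g =>
        show a ((1 : G3 F) : G3 F ⧸ P) * 1 = a _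
        rw [mul_one, h2 g]
    · funext x
      induction x using QuotientGroup.induction_on with
      | H g =>
        show a ((1 : G3 F) : G3 F ⧸ P) * 1 = b _
        rw [mul_one, ← h1 g, h2 g]
  · rw [Submodule.span_le, Set.singleton_subset_iff]
    show _ = _
    funext y
    show (1 : ZMod 2) + 1 = 0
    decide

end fun_mod

section pimap
variable {F : Type} [Field F] [Fintype F] {V : Type} [AddCommGroup V] [Module (ZMod 2) V]
  {ρ : Representation (ZMod 2) (G3 F) V}

/-- the vectors of the cosets -/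
def fl (B : Subgroup (G3 F)) (w : V) (hB : ∀ b ∈ B, ρ b w = w) : G3 F ⧸ B → V :=
  Quotient.lift (fun g => ρ g w) (by
    intro a b h
    have h' : a⁻¹ * b ∈ B := QuotientGroup.leftRel_apply.1 h
    have := hB _ h'
    show ρ a w = ρ b w
    have e : ρ b w = ρ a (ρ (a⁻¹ * b) w) := by
      rw [← Module.End.mul_apply, ← map_mul, mul_inv_cancel_left]
    rw [e, this])

theorem fl_mk {B : Subgroup (G3 F)} {w : V} (hB : ∀ b ∈ B, ρ b w = w) (g : G3 F) :
    fl B w hB (g : G3 F ⧸ B) = ρ g w := rfl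

theorem fl_smul {B : Subgroup (G3 F)} {w : V} (hB : ∀ b ∈ B, ρ b w = w) (g : G3 F) (x : G3 F ⧸ B) :
    fl B w hB (g • x) = ρ g (fl B w hB x) := by
  induction x using QuotientGroup.induction_on with
  | H h =>
    show fl B w hB ((g * h : G3 F) : G3 F ⧸ B) = _
    rw [fl_mk, fl_mk, map_mul]
    rfl

/-- the map `π` -/
noncomputable def pim (B : Subgroup (G3 F)) [Fintype (G3 F ⧸ B)] (w : V) (hB : ∀ b ∈ B, ρ b w = w) :
    (G3 F ⧸ B → ZMod 2) →ₗ[ZMod 2] V where
  toFun c := ∑ x, c x • fl B w hB x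
  map_add' c d := by
    rw [← Finset.sum_add_distrib]
    exact Finset.sum_congr rfl fun x _ => add_smul _ _ _
  map_smul' r c := by
    rw [RingHom.id_apply, Finset.smul_sum]
    exact Finset.sum_congr rfl fun x _ => by rw [smul_smul]; rfl

theorem pim_apply {B : Subgroup (G3 F)} [Fintype (G3 F ⧸ B)] {w : V} (hB : ∀ b ∈ B, ρ b w = w)
    (c : G3 F ⧸ B → ZMod 2) : pim B w hB c = ∑ x, c x • fl B w hB x := rfl

theorem pim_act {B : Subgroup (G3 F)} [Fintype (G3 F ⧸ B)] {w : V} (hB : ∀ b ∈ B, ρ b w = w) (g : G3 F)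
    (c : G3 F ⧸ B → ZMod 2) : pim B w hB (act B g c) = ρ g (pim B w hB c) := by
  rw [pim_apply, pim_apply, map_sum]
  rw [← Equiv.sum_comp (MulAction.toPerm g : Equiv.Perm (G3 F ⧸ B))]
  refine Finset.sum_congr rfl fun x _ => ?_
  show c (g⁻¹ • g • x) • fl B w hB (g • x) = _
  rw [inv_smul_smul, fl_smul, map_smul]

theorem pim_pull {B P : Subgroup (G3 F)} [Fintype (G3 F ⧸ B)] [Fintype (G3 F ⧸ P)] (hP : B ≤ P) {w : V}
    (hB : ∀ b ∈ B, ρ b w = w) {ι : Type} [Fintype ι] (k : ι → G3 F) (hk : ∀ i, k i ∈ P)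
    (hi : ∀ i j, (k i)⁻¹ * k j ∈ B → i = j) (hs : ∀ q ∈ P, ∃ i, (k i)⁻¹ * q ∈ B) (h0 : ∑ i, ρ (k i) w = 0)
    (a : G3 F ⧸ P → ZMod 2) : pim B w hB (fun x => a (Subgroup.quotientMapOfLE hP x)) = 0 := by
  classical
  rw [pim_apply, ← Finset.sum_fiberwise Finset.univ (Subgroup.quotientMapOfLE hP)]
  refine Finset.sum_eq_zero fun p _ => ?_
  induction p using QuotientGroup.induction_on with
  | H g =>
    have e1 : ∑ x ∈ Finset.univ with Subgroup.quotientMapOfLE hP x = (g : G3 F ⧸ P),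
        a (Subgroup.quotientMapOfLE hP x) • fl B w hB x =
        a (g : G3 F ⧸ P) • ∑ x ∈ Finset.univ with Subgroup.quotientMapOfLE hP x = (g : G3 F ⧸ P), fl B w hB x := by
      rw [Finset.smul_sum]
      refine Finset.sum_congr rfl fun x hx => ?_
      rw [(Finset.mem_filter.1 hx).2]
    have e2 : (Finset.univ.filter fun x : G3 F ⧸ B => Subgroup.quotientMapOfLE hP x = (g : G3 F ⧸ P)) =
        Finset.univ.image fun i : ι => ((g * k i : G3 F) : G3 F ⧸ B) := by
      ext x
      rw [Finset.mem_filter, Finset.mem_image]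
      constructor
      · rintro ⟨-, hx⟩
        induction x using QuotientGroup.induction_on with
        | H h =>
          have hx' : ((h : G3 F) : G3 F ⧸ P) = (g : G3 F ⧸ P) := hx
          have hx2 := QuotientGroup.eq.1 hx'.symm
          obtain ⟨i, hi'⟩ := hs _ hx2
          refine ⟨i, Finset.mem_univ _, ?_⟩
          rw [QuotientGroup.eq]
          have : (g * k i)⁻¹ * h = (k i)⁻¹ * (g⁻¹ * h) := by group
          rw [this]
          exact hi'
      · rintro ⟨i, -, rfl⟩
        refine ⟨Finset.mem_univ _, ?_⟩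
        show ((g * k i : G3 F) : G3 F ⧸ P) = (g : G3 F ⧸ P)
        rw [QuotientGroup.eq]
        have : (g * k i)⁻¹ * g = (k i)⁻¹ := by group
        rw [this]
        exact P.inv_mem (hk i)
    rw [e1, e2, Finset.sum_image]
    · have e3 : ∑ i, fl B w hB ((g * k i : G3 F) : G3 F ⧸ B) = ρ g (∑ i, ρ (k i) w) := by
        rw [map_sum]
        refine Finset.sum_congr rfl fun i _ => ?_
        rw [fl_mk, map_mul]
        rfl
      rw [e3, h0, map_zero, smul_zero]
    · intro i _ j _ hij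
      have hij' := QuotientGroup.eq.1 hij
      have : (g * k i)⁻¹ * (g * k j) = (k i)⁻¹ * k j := by group
      rw [this] at hij'
      exact hi i j hij'

end pimap

end Cfsg.Agent.H482.LF
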